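import Mathlib
import Cfsg.Agent.Lib.OrthGroup
import Cfsg.Agent.Lib.OrthOmega

/-!
# Zassenhaus' formula for the spinor norm, from Wall's discriminant

If `g` is an even product of reflections with a square product of values and `1 + g` is
invertible, then `2 ^ dim * det (1 + g)` is a square.
-/

set_option autoImplicit false

namespace Cfsg.Agent.Lib.SpecBC

open Module Cfsg.Agent.Lib.OrthGroup Cfsg.Agent.Lib.OrthOmega

variable {F V : Type*} [Field F] [AddCommGroup V] [Module F V] [FiniteDimensional F V]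
variable {Q : QuadraticForm F V}

/-- The Gram matrix of the polar form in the standard basis. -/
noncomputable def gramB (Q : QuadraticForm F V) : Matrix (Fin (finrank F V)) (Fin (finrank F V)) F :=
  Matrix.of fun i j => B Q (Module.finBasis F V i) (Module.finBasis F V j)

theorem wall_of_det_ne (h : V ≃ₗ[F] V) (hd : LinearMap.det ((h : V →ₗ[F] V) - LinearMap.id) ≠ 0) :
    WallDisc Q h ((gramB Q).det * LinearMap.det ((h : V →ₗ[F] V) - LinearMap.id)) := by
  classical
  set f : V →ₗ[F] V := (h : V →ₗ[F] V) - LinearMap.id with hf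
  let e := LinearMap.equivOfDetNeZero f hd
  have he : ∀ x, e x = h x - x := fun x => rfl
  let b := Module.finBasis F V
  refine ⟨Fin (finrank F V), inferInstance, inferInstance, b, ⟨?_, ?_⟩, ?_⟩
  · have := b.linearIndependent.map' (e : V →ₗ[F] V) (LinearEquiv.ker e)
    have e' : (fun i => h (b i) - b i) = (e : V →ₗ[F] V) ∘ b := by
      funext i
      rfl
    rw [e']
    exact this
  · have hfix : fix h = ⊥ := by
      rw [eq_bot_iff]
      intro x hx
      rw [mem_fix] at hx
      have : e x = 0 := by rw [he, hx, sub_self]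
      simpa using this
    rw [hfix]
    simp
  · have hg : gram Q h b = gramB Q * LinearMap.toMatrix b b f := by
      ext i j
      rw [Matrix.mul_apply]
      simp only [gram, gramB, Matrix.of_apply]
      have h1 : h (b j) - b j = f (b j) := rfl
      rw [h1]
      conv_lhs => rw [← b.sum_repr (f (b j))]
      rw [map_sum]
      apply Finset.sum_congr rfl
      intro k _
      rw [map_smul, LinearMap.toMatrix_apply, smul_eq_mul, mul_comm]
    rw [hg, Matrix.det_mul, LinearMap.det_toMatrix]

theorem det_gramB_ne (hQ : (B Q).Nondegenerate) : (gramB Q).det ≠ 0 := by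
  classical
  have h1 : gramB Q = LinearMap.BilinForm.toMatrix (Module.finBasis F V) (B Q) := by
    ext i j
    simp [gramB, LinearMap.BilinForm.toMatrix_apply]
  rw [h1]
  exact (LinearMap.BilinForm.nondegenerate_iff_det_ne_zero _).1 hQ

theorem prod_neg_eq (L : List V) (he : Even L.length) :
    (L.map (fun v => - Q v)).prod = (L.map Q).prod := by
  have h4 : ∀ L : List V, (L.map (fun v => - Q v)).prod = (-1) ^ L.length * (L.map Q).prod := by
    intro L
    induction L with
    | nil => simp
    | cons v L ih =>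
      simp only [List.map_cons, List.prod_cons, List.length_cons, ih, pow_succ]
      ring
  rw [h4 L, he.neg_one_pow, one_mul]

/-- **Zassenhaus' formula**, one direction. -/
theorem isSquare_two_pow_mul_det (hQ : (B Q).Nondegenerate) (h2 : (2 : F) ≠ 0) (hOG : O Q ≤ G Q)
    (g : V ≃ₗ[F] V) (L : List V) (hL : ∀ v ∈ L, Q v ≠ 0) (hg : g = prodR Q L)
    (he : Even L.length) (hs : IsSquare (L.map Q).prod)
    (hd : LinearMap.det ((g : V →ₗ[F] V) + LinearMap.id) ≠ 0) :
    IsSquare ((2 : F) ^ finrank F V * LinearMap.det ((g : V →ₗ[F] V) + LinearMap.id)) := by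
  classical
  set d := finrank F V with hdd
  have hneg : (LinearEquiv.neg F : V ≃ₗ[F] V) ∈ O Q := by
    intro v
    exact Q_neg Q v
  obtain ⟨L₁, hL₁, hprod⟩ := exists_list_of_mem_G (hOG hneg)
  -- first, `- 1`
  have hn1 : ((LinearEquiv.neg F : V ≃ₗ[F] V) : V →ₗ[F] V) - LinearMap.id = (-2 : F) • LinearMap.id := by
    ext x
    simp only [LinearMap.sub_apply, LinearMap.smul_apply, LinearMap.id_apply]
    show -x - x = (-2 : F) • x
    rw [neg_smul, two_smul]
    abel
  have hn2 : LinearMap.det (((LinearEquiv.neg F : V ≃ₗ[F] V) : V →ₗ[F] V) - LinearMap.id) = (-2 : F) ^ d := by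
    rw [hn1, LinearMap.det_smul, LinearMap.det_id, mul_one]
  have hn3 : LinearMap.det (((LinearEquiv.neg F : V ≃ₗ[F] V) : V →ₗ[F] V) - LinearMap.id) ≠ 0 := by
    rw [hn2]
    exact pow_ne_zero _ (neg_ne_zero.2 h2)
  have hW1 := wall_of_det_ne (Q := Q) _ hn3
  have hW1' : WallDisc Q (prodR Q L₁) ((gramB Q).det * LinearMap.det
      (((LinearEquiv.neg F : V ≃ₗ[F] V) : V →ₗ[F] V) - LinearMap.id)) := by
    rw [← hprod]
    exact hW1
  have hS1 := wallDisc_prodR hQ L₁ hL₁ _ hW1'
  rw [hn2] at hS1
  -- second, `- g`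
  set h : V ≃ₗ[F] V := g * LinearEquiv.neg F with hh
  have hh1 : (h : V →ₗ[F] V) - LinearMap.id = (-1 : F) • ((g : V →ₗ[F] V) + LinearMap.id) := by
    ext x
    simp only [LinearMap.sub_apply, LinearMap.smul_apply, LinearMap.id_apply, LinearMap.add_apply]
    show g (-x) - x = (-1 : F) • (g x + x)
    rw [map_neg, neg_smul, one_smul]
    abel
  have hh2 : LinearMap.det ((h : V →ₗ[F] V) - LinearMap.id) =
      (-1 : F) ^ d * LinearMap.det ((g : V →ₗ[F] V) + LinearMap.id) := by
    rw [hh1, LinearMap.det_smul]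
  have hh3 : LinearMap.det ((h : V →ₗ[F] V) - LinearMap.id) ≠ 0 := by
    rw [hh2]
    exact mul_ne_zero (pow_ne_zero _ (by simp)) hd
  have hW2 := wall_of_det_ne (Q := Q) h hh3
  have hLL : h = prodR Q (L ++ L₁) := by
    rw [prodR_append, ← hg, ← hprod]
  have hL2 : ∀ v ∈ L ++ L₁, Q v ≠ 0 := by
    intro v hv
    rcases List.mem_append.1 hv with h | h
    · exact hL v h
    · exact hL₁ v h
  rw [hLL] at hW2
  have hS2 := wallDisc_prodR hQ (L ++ L₁) hL2 _ hW2
  rw [← hLL, hh2, List.map_append, List.prod_append, prod_neg_eq L he] at hS2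
  -- combine
  obtain ⟨s, hs⟩ := hs
  set P := (L₁.map (fun v => - Q v)).prod with hP
  set D := (gramB Q).det with hD
  set X := LinearMap.det ((g : V →ₗ[F] V) + LinearMap.id) with hX
  have hs0 : s ≠ 0 := by
    rintro rfl
    have : (L.map Q).prod ≠ 0 := by
      apply List.prod_ne_zero
      intro h
      obtain ⟨v, hv, hv0⟩ := List.mem_map.mp h
      exact hL v hv hv0
    apply this
    rw [hs]; simp
  have hP0 : P ≠ 0 := by
    rw [hP]
    apply List.prod_ne_zero
    intro h
    obtain ⟨v, hv, hv0⟩ := List.mem_map.mp h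
    exact hL₁ v hv (neg_eq_zero.1 hv0)
  have hD0 : D ≠ 0 := det_gramB_ne hQ
  obtain ⟨y1, hy1⟩ := hS1
  obtain ⟨y2, hy2⟩ := hS2
  have hmain : (D * P * s) * (D * P * s) * ((2 : F) ^ d * X) = (y1 * y2) * (y1 * y2) := by
    have e1 : (y1 * y2) * (y1 * y2) = (y1 * y1) * (y2 * y2) := by ring
    have e2 : ((-2 : F) ^ d) * ((-1 : F) ^ d) = (2 : F) ^ d := by
      rw [← mul_pow]
      norm_num
    rw [e1, ← hy1, ← hy2, hs]
    rw [← e2]
    ring
  have hne : (D * P * s) ≠ 0 := mul_ne_zero (mul_ne_zero hD0 hP0) hs0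
  refine ⟨(y1 * y2) / (D * P * s), ?_⟩
  field_simp
  linear_combination hmain

end Cfsg.Agent.Lib.SpecBC
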