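import Mathlib
import Cfsg.Agent.Lib.SympEquiv
import Cfsg.Agent.Lib.SympForm
import Cfsg.Agent.Lib.SpCenter
import Cfsg.Prelude.Def_Classical

/-!
# An element of order `p (q ^ m + 1)` in `PSp (2 m + 2, q)`, `q` odd

The element acts on `K ⊕ F²`, where `K` is the extension of degree `2 m` of `F`: on `K` by
multiplication by an element of order `q ^ m + 1` (an isometry of a trace form), and on `F²` by a
transvection.
-/

set_option autoImplicit false

namespace Cfsg.Agent.Lib.SpecBC

open Module Matrix Cfsg Cfsg.Agent.Lib.SympForm Cfsg.Agent.Lib.SympEquiv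

variable {F : Type*} [Field F]

/-- An isometry of a space with a symplectic frame gives an element of `Sp`. -/
theorem exists_sp_of_isometry {n : ℕ} {V : Type*} [AddCommGroup V] [Module F V]
    (E : (Fin n ⊕ Fin n → F) ≃ₗ[F] V) (B : V →ₗ[F] V →ₗ[F] F)
    (hE : ∀ u v, B (E u) (E v) = sympForm n F u v) (h : V ≃ₗ[F] V)
    (hB : ∀ x y, B (h x) (h y) = B x y) :
    ∃ A : symplecticGroup (Fin n) F, ∀ (k : ℕ) (v : Fin n ⊕ Fin n → F),
      ((A ^ k : symplecticGroup (Fin n) F) : Matrix (Fin n ⊕ Fin n) (Fin n ⊕ Fin n) F) *ᵥ v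
        = E.symm ((h ^ k) (E v)) := by
  classical
  let f : (Fin n ⊕ Fin n → F) →ₗ[F] (Fin n ⊕ Fin n → F) :=
    (E.symm : V →ₗ[F] _) ∘ₗ (h : V →ₗ[F] V) ∘ₗ (E : _ →ₗ[F] V)
  let M : Matrix (Fin n ⊕ Fin n) (Fin n ⊕ Fin n) F := LinearMap.toMatrix' f
  have hM : ∀ v, M *ᵥ v = E.symm (h (E v)) := by
    intro v
    rw [LinearMap.toMatrix'_mulVec]
    rfl
  have hmem : M ∈ symplecticGroup (Fin n) F := by
    rw [mem_symplecticGroup_iff_preserves]
    intro x y
    rw [hM, hM, ← hE, LinearEquiv.apply_symm_apply, LinearEquiv.apply_symm_apply, hB, hE]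
  refine ⟨⟨M, hmem⟩, ?_⟩
  intro k
  induction k with
  | zero =>
    intro v
    simp
  | succ k ih =>
    intro v
    rw [pow_succ, pow_succ]
    show (((⟨M, hmem⟩ ^ k : symplecticGroup (Fin n) F) : Matrix _ _ F) * M) *ᵥ v = _
    rw [← mulVec_mulVec, ih, hM, LinearEquiv.apply_symm_apply]
    rfl

/-- The order of the image of `A` in `PSp`. -/
theorem orderOf_psp {n : ℕ} [NeZero n] (A : symplecticGroup (Fin n) F) (N : ℕ)
    (h : ∀ k : ℕ, (A ^ k = 1 ∨ A ^ k = Cfsg.Agent.Lib.SpCenter.negOne) ↔ N ∣ k) :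
    orderOf (QuotientGroup.mk A : PSp n F) = N := by
  have hk : ∀ k : ℕ, orderOf (QuotientGroup.mk A : PSp n F) ∣ k ↔ N ∣ k := by
    intro k
    rw [orderOf_dvd_iff_pow_eq_one, ← h k, ← QuotientGroup.mk_pow, QuotientGroup.eq_one_iff]
    exact Cfsg.Agent.Lib.SpCenter.mem_center_iff
  exact Nat.dvd_antisymm ((hk _).2 (dvd_refl _) |>.trans (dvd_refl _) |> fun _ => by
    exact (hk N).2 (dvd_refl N)) ((hk _).1 (dvd_refl _))

variable [Fintype F]

/-- The field data: an extension of degree `2 m` with its involution. -/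
theorem exists_field_data (p : ℕ) [Fact p.Prime] [CharP F p] {q m : ℕ} (hq : Fintype.card F = q)
    (hodd : Odd q) (hm : 1 ≤ m) :
    ∃ (K : Type) (_ : Field K) (_ : Fintype K) (_ : Algebra F K), finrank F K = 2 * m ∧
      ∃ (τ : K ≃ₐ[F] K) (ι c : K), (∀ x, τ (τ x) = x) ∧ ι ≠ 0 ∧ τ ι = -ι ∧ c * τ c = 1 ∧
        orderOf c = q ^ m + 1 := by
  classical
  haveI : NeZero (2 * m) := ⟨by omega⟩
  let K := FiniteField.Extension F p (2 * m)
  letI : Fintype K := Fintype.ofFinite K
  have hcard : Fintype.card K = q ^ (2 * m) := by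
    rw [← Nat.card_eq_fintype_card, FiniteField.natCard_extension, Nat.card_eq_fintype_card, hq]
  have hq1 : 1 < q := by
    rw [← hq]
    exact Fintype.one_lt_card
  let τ : K ≃ₐ[F] K := FiniteField.Extension.frob F p (2 * m) ^ m
  have hτ : ∀ x : K, τ x = x ^ q ^ m := by
    intro x
    have := FiniteField.Extension.frob_iterate_apply F p (2 * m) m (x := x)
    rw [Nat.card_eq_fintype_card, hq] at this
    exact this
  have hττ : ∀ x : K, τ (τ x) = x := by
    intro x
    rw [hτ, hτ, ← pow_mul, ← pow_add, ← two_mul, ← hcard]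
    exact FiniteField.pow_card x
  obtain ⟨g, hg⟩ := IsCyclic.exists_generator (α := Kˣ)
  have hgord : orderOf g = q ^ (2 * m) - 1 := by
    rw [orderOf_eq_card_of_forall_mem_zpowers hg, Nat.card_eq_fintype_card, Fintype.card_units, hcard]
  have hqm : 1 < q ^ m := Nat.one_lt_pow (by omega) hq1
  have hfac : q ^ (2 * m) - 1 = (q ^ m - 1) * (q ^ m + 1) := by
    have : q ^ (2 * m) = q ^ m * q ^ m := by rw [two_mul, pow_add]
    rw [this]
    obtain ⟨a, ha⟩ : ∃ a, q ^ m = a + 1 := ⟨q ^ m - 1, by omega⟩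
    rw [ha]
    simp only [Nat.add_sub_cancel]
    have : (a + 1) * (a + 1) = a * (a + 1 + 1) + 1 := by ring
    omega
  have hodd' : Odd (q ^ m) := hodd.pow
  obtain ⟨s, hs⟩ : ∃ s, q ^ m + 1 = 2 * s := by
    obtain ⟨t, ht⟩ := hodd'
    exact ⟨t + 1, by omega⟩
  have hspos : 0 < s := by omega
  -- the element `c`
  let c : K := ((g ^ (q ^ m - 1) : Kˣ) : K)
  have hcord : orderOf c = q ^ m + 1 := by
    rw [show c = ((g ^ (q ^ m - 1) : Kˣ) : K) from rfl, orderOf_units]
    rw [orderOf_pow' g (by omega), hgord, hfac]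
    rw [Nat.gcd_eq_right (dvd_mul_right (q ^ m - 1) (q ^ m + 1))]
    exact Nat.mul_div_cancel_left _ (by omega)
  have hcτ : c * τ c = 1 := by
    rw [hτ, ← pow_succ']
    have : c ^ (q ^ m + 1) = 1 := by
      rw [← hcord]
      exact pow_orderOf_eq_one c
    rw [this]
  -- the element `ι`
  let ι : K := ((g ^ s : Kˣ) : K)
  have hι0 : ι ≠ 0 := Units.ne_zero _
  have hιsq : ι ^ (q ^ m - 1) = -1 := by
    have h1 : (ι ^ (q ^ m - 1)) ^ 2 = 1 := by
      have : (((g ^ s : Kˣ) ^ (q ^ m - 1)) ^ 2 : Kˣ) = 1 := by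
        rw [← pow_mul, ← pow_mul]
        have : s * ((q ^ m - 1) * 2) = orderOf g := by
          rw [hgord, hfac, hs]
          ring
        rw [this]
        exact pow_orderOf_eq_one g
      have h5 := congrArg (fun u : Kˣ => (u : K)) this
      simpa [ι] using h5
    have h2 : ι ^ (q ^ m - 1) ≠ 1 := by
      intro h
      have : ((g ^ s : Kˣ) ^ (q ^ m - 1)) = 1 := by
        apply Units.ext
        have h6 : (((g ^ s : Kˣ) : K)) ^ (q ^ m - 1) = 1 := h
        simpa using h6
      rw [← pow_mul, ← orderOf_dvd_iff_pow_eq_one, hgord, hfac, hs] at this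
      have h3 := Nat.le_of_dvd (Nat.mul_pos hspos (by omega)) this
      have h7 : 0 < q ^ m - 1 := by omega
      have h8 : (q ^ m - 1) * (2 * s) = 2 * (s * (q ^ m - 1)) := by ring
      have h9 : 0 < s * (q ^ m - 1) := Nat.mul_pos hspos h7
      omega
    have h3 : (ι ^ (q ^ m - 1) - 1) * (ι ^ (q ^ m - 1) + 1) = 0 := by
      linear_combination h1
    rcases mul_eq_zero.mp h3 with h4 | h4
    · exact absurd (sub_eq_zero.mp h4) h2
    · linear_combination h4
  have hτι : τ ι = -ι := by
    rw [hτ]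
    have h10 : ι ^ q ^ m = ι ^ (q ^ m - 1) * ι := by
      rw [← pow_succ]
      congr 1
      omega
    rw [h10, hιsq]
    ring
  refine ⟨K, inferInstance, inferInstance, inferInstance, FiniteField.finrank_extension F p (2 * m),
    τ, ι, c, hττ, hι0, hτι, hcτ, hcord⟩

/-- The element. -/
theorem exists_psp_elt (p : ℕ) [Fact p.Prime] [CharP F p] {q m : ℕ} (hq : Fintype.card F = q)
    (hodd : Odd q) (hm : 1 ≤ m) : ∃ x : PSp (m + 1) F, orderOf x = p * (q ^ m + 1) := by
  classical
  obtain ⟨K, _, _, _, hfr, τ, ι, c, hττ, hι0, hτι, hcτ, hcord⟩ := exists_field_data (F := F) p hq hodd hm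
  have hc0 : c ≠ 0 := by
    rintro rfl
    simp at hcτ
  obtain ⟨f, hpp, hqf⟩ := FiniteField.card F p
  rw [hq] at hqf
  have hp2 : p ≠ 2 := by
    rintro rfl
    rw [hqf] at hodd
    exact (Nat.not_even_iff_odd.mpr hodd) ((Nat.even_pow' f.ne_zero).mpr even_two)
  have h20 : (2 : F) ≠ 0 := by
    intro h
    have h3 : ((2 : ℕ) : F) = 0 := by exact_mod_cast h
    rw [CharP.cast_eq_zero_iff F p] at h3
    exact hp2 ((Nat.prime_dvd_prime_iff_eq hpp Nat.prime_two).mp h3)
  have h10 : (1 : F) ≠ -1 := by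
    intro h
    apply h20
    linear_combination h
  have hpq : p ∣ q := by
    rw [hqf]
    exact dvd_pow_self p f.ne_zero
  have hq1 : 1 < q := by
    rw [← hq]
    exact Fintype.one_lt_card
  have hpN : Nat.Coprime p (q ^ m + 1) := by
    rw [Nat.Prime.coprime_iff_not_dvd hpp]
    intro h
    have h4 : p ∣ q ^ m := hpq.trans (dvd_pow_self q (by omega))
    have h5 : p ∣ 1 := (Nat.dvd_add_right h4).mp h
    exact hpp.one_lt.ne' (Nat.dvd_one.mp h5)
  -- the space
  let V := K × F × F
  let β : K → K → F := fun x y => Algebra.trace F K (ι * x * τ y)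
  have hβanti : ∀ x y, β y x = - β x y := by
    intro x y
    show Algebra.trace F K (ι * y * τ x) = - Algebra.trace F K (ι * x * τ y)
    have e1 : τ (ι * y * τ x) = - (ι * x * τ y) := by
      rw [map_mul τ, map_mul τ, hττ, hτι]
      ring
    rw [← Algebra.trace_eq_of_algEquiv τ (ι * y * τ x), e1, (Algebra.trace F K).map_neg]
  let B : V →ₗ[F] V →ₗ[F] F := LinearMap.mk₂ F
    (fun u v => β u.1 v.1 + (u.2.1 * v.2.2 - u.2.2 * v.2.1))
    (by
      intro u u' v
      show Algebra.trace F K (ι * (u.1 + u'.1) * τ v.1) + ((u.2.1 + u'.2.1) * v.2.2 - (u.2.2 + u'.2.2) * v.2.1)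
        = (Algebra.trace F K (ι * u.1 * τ v.1) + (u.2.1 * v.2.2 - u.2.2 * v.2.1))
          + (Algebra.trace F K (ι * u'.1 * τ v.1) + (u'.2.1 * v.2.2 - u'.2.2 * v.2.1))
      rw [mul_add, add_mul, map_add]
      ring)
    (by
      intro a u v
      show Algebra.trace F K (ι * (a • u.1) * τ v.1) + ((a * u.2.1) * v.2.2 - (a * u.2.2) * v.2.1)
        = a * (Algebra.trace F K (ι * u.1 * τ v.1) + (u.2.1 * v.2.2 - u.2.2 * v.2.1))
      rw [show ι * (a • u.1) * τ v.1 = a • (ι * u.1 * τ v.1) by
        rw [mul_smul_comm, smul_mul_assoc], map_smul, smul_eq_mul]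
      ring)
    (by
      intro u v v'
      show Algebra.trace F K (ι * u.1 * τ (v.1 + v'.1)) + (u.2.1 * (v.2.2 + v'.2.2) - u.2.2 * (v.2.1 + v'.2.1))
        = (Algebra.trace F K (ι * u.1 * τ v.1) + (u.2.1 * v.2.2 - u.2.2 * v.2.1))
          + (Algebra.trace F K (ι * u.1 * τ v'.1) + (u.2.1 * v'.2.2 - u.2.2 * v'.2.1))
      rw [map_add, mul_add, map_add]
      ring)
    (by
      intro a u v
      show Algebra.trace F K (ι * u.1 * τ (a • v.1)) + (u.2.1 * (a * v.2.2) - u.2.2 * (a * v.2.1))
        = a * (Algebra.trace F K (ι * u.1 * τ v.1) + (u.2.1 * v.2.2 - u.2.2 * v.2.1))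
      rw [map_smul, mul_smul_comm, map_smul, smul_eq_mul]
      ring)
  have hB : ∀ u v : V, B u v = β u.1 v.1 + (u.2.1 * v.2.2 - u.2.2 * v.2.1) := fun _ _ => rfl
  have halt : ∀ u, B u u = 0 := by
    intro u
    rw [hB]
    have h1 := hβanti u.1 u.1
    have h2 : β u.1 u.1 = 0 := by
      have : (2 : F) * β u.1 u.1 = 0 := by linear_combination h1
      exact (mul_eq_zero.mp this).resolve_left h20
    rw [h2]
    ring
  have hnd : ∀ u, (∀ v, B u v = 0) → u = 0 := by
    intro u hu
    have h1 : u.1 = 0 := by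
      by_contra hne
      have hz : ι * u.1 ≠ 0 := mul_ne_zero hι0 hne
      have ht := Algebra.trace_ne_zero F K
      obtain ⟨w, hw⟩ : ∃ w : K, Algebra.trace F K w ≠ 0 := by
        by_contra hall
        push_neg at hall
        exact ht (LinearMap.ext hall)
      have h2 := hu ((τ.symm ((ι * u.1)⁻¹ * w)), 0, 0)
      rw [hB] at h2
      simp only [mul_zero, sub_self, add_zero] at h2
      show False
      apply hw
      have h3 : β u.1 (τ.symm ((ι * u.1)⁻¹ * w)) = Algebra.trace F K w := by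
        show Algebra.trace F K (ι * u.1 * τ (τ.symm ((ι * u.1)⁻¹ * w))) = _
        rw [AlgEquiv.apply_symm_apply, ← mul_assoc, mul_inv_cancel₀ hz, one_mul]
      rw [← h3, h2]
    have h2 := hu (0, 0, 1)
    have h3 := hu (0, 1, 0)
    rw [hB] at h2 h3
    have h4 : β u.1 0 = 0 := by
      rw [h1]
      show Algebra.trace F K (ι * 0 * τ 0) = 0
      simp
    simp only [h4, mul_one, mul_zero, sub_zero, zero_add, zero_sub, neg_eq_zero] at h2 h3
    exact Prod.ext h1 (Prod.ext h2 h3)
  -- the dimension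
  have hVdim : finrank F V = 2 * (m + 1) := by
    show finrank F (K × F × F) = _
    rw [finrank_prod, finrank_prod, hfr, finrank_self]
    ring
  haveI : FiniteDimensional F K := by
    apply FiniteDimensional.of_finrank_pos
    rw [hfr]
    omega
  obtain ⟨E, hE⟩ := exists_symp_equiv B halt hnd hVdim
  -- the isometry
  let h : V ≃ₗ[F] V :=
    { toFun := fun u => (c * u.1, u.2.1 + u.2.2, u.2.2)
      invFun := fun u => (c⁻¹ * u.1, u.2.1 - u.2.2, u.2.2)
      map_add' := by
        intro u v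
        apply Prod.ext
        · exact mul_add _ _ _
        · apply Prod.ext
          · show u.2.1 + v.2.1 + (u.2.2 + v.2.2) = u.2.1 + u.2.2 + (v.2.1 + v.2.2)
            ring
          · rfl
      map_smul' := by
        intro a u
        apply Prod.ext
        · exact mul_smul_comm _ _ _
        · apply Prod.ext
          · show a * u.2.1 + a * u.2.2 = a * (u.2.1 + u.2.2)
            ring
          · rfl
      left_inv := by
        intro u
        apply Prod.ext
        · show c⁻¹ * (c * u.1) = u.1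
          rw [← mul_assoc, inv_mul_cancel₀ hc0, one_mul]
        · apply Prod.ext
          · show u.2.1 + u.2.2 - u.2.2 = u.2.1
            ring
          · rfl
      right_inv := by
        intro u
        apply Prod.ext
        · show c * (c⁻¹ * u.1) = u.1
          rw [← mul_assoc, mul_inv_cancel₀ hc0, one_mul]
        · apply Prod.ext
          · show u.2.1 - u.2.2 + u.2.2 = u.2.1
            ring
          · rfl }
  have hh : ∀ u : V, h u = (c * u.1, u.2.1 + u.2.2, u.2.2) := fun _ => rfl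
  have hiso : ∀ x y, B (h x) (h y) = B x y := by
    intro x y
    rw [hB, hB]
    have h1 : β (h x).1 (h y).1 = β x.1 y.1 := by
      show Algebra.trace F K (ι * (c * x.1) * τ (c * y.1)) = Algebra.trace F K (ι * x.1 * τ y.1)
      rw [map_mul τ]
      congr 1
      have h9 : ι * (c * x.1) * (τ c * τ y.1) = (ι * x.1 * τ y.1) * (c * τ c) := by ring
      rw [h9, hcτ, mul_one]
    rw [h1]
    show _ + ((x.2.1 + x.2.2) * y.2.2 - x.2.2 * (y.2.1 + y.2.2)) = _
    ring
  have hpow : ∀ (k : ℕ) (u : V), (h ^ k) u = (c ^ k * u.1, u.2.1 + k * u.2.2, u.2.2) := by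
    intro k
    induction k with
    | zero =>
      intro u
      simp
    | succ k ih =>
      intro u
      rw [pow_succ]
      show (h ^ k) (h u) = _
      rw [ih, hh]
      apply Prod.ext
      · show c ^ k * (c * u.1) = c ^ (k + 1) * u.1
        ring
      · apply Prod.ext
        · show u.2.1 + u.2.2 + k * u.2.2 = u.2.1 + ((k + 1 : ℕ) : F) * u.2.2
          push_cast
          ring
        · rfl
  obtain ⟨A, hA⟩ := exists_sp_of_isometry E B hE h hiso
  refine ⟨QuotientGroup.mk A, orderOf_psp A _ ?_⟩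
  intro k
  have hA' : ∀ v, (A ^ k : symplecticGroup (Fin (m + 1)) F).1 *ᵥ v = E.symm ((h ^ k) (E v)) := hA k
  constructor
  · have key : ∀ ε : F, (ε = 1 ∨ ε = -1) → (∀ w : V, (h ^ k) w = ε • w) → p * (q ^ m + 1) ∣ k := by
      intro ε hε hw
      have h1 := hw (0, 0, 1)
      rw [hpow] at h1
      have h2 : (1 : F) = ε * 1 := congrArg (fun u : V => u.2.2) h1
      have h3 : ((0 : F) + k * 1) = ε * 0 := congrArg (fun u : V => u.2.1) h1
      have hε1 : ε = 1 := by
        rw [mul_one] at h2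
        exact h2.symm
      have h4 : (k : F) = 0 := by simpa using h3
      rw [CharP.cast_eq_zero_iff F p] at h4
      have h5 := hw (1, 0, 0)
      rw [hpow] at h5
      have h6 : c ^ k * 1 = ε • (1 : K) := congrArg (fun u : V => u.1) h5
      rw [hε1, one_smul, mul_one] at h6
      have h7 : q ^ m + 1 ∣ k := by
        rw [← hcord]
        exact orderOf_dvd_of_pow_eq_one h6
      exact hpN.mul_dvd_of_dvd_of_dvd h4 h7
    rintro (hk | hk)
    · apply key 1 (Or.inl rfl)
      intro w
      have h1 := hA' (E.symm w)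
      rw [hk] at h1
      simp only [LinearEquiv.apply_symm_apply] at h1
      have h2 := congrArg E h1
      simp only [LinearEquiv.apply_symm_apply] at h2
      rw [← h2]
      simp
    · apply key (-1) (Or.inr rfl)
      intro w
      have h1 := hA' (E.symm w)
      rw [hk] at h1
      simp only [LinearEquiv.apply_symm_apply] at h1
      have h2 := congrArg E h1
      simp only [LinearEquiv.apply_symm_apply] at h2
      rw [← h2]
      show E ((-1 : Matrix _ _ F) *ᵥ E.symm w) = _
      simp [Matrix.neg_mulVec]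
  · rintro ⟨t, rfl⟩
    left
    apply Subtype.ext
    apply Matrix.mulVec_injective
    funext v
    rw [hA' v]
    have h1 : ∀ u : V, (h ^ (p * (q ^ m + 1) * t)) u = u := by
      intro u
      rw [hpow]
      have h2 : ((p * (q ^ m + 1) * t : ℕ) : F) = 0 := by
        rw [CharP.cast_eq_zero_iff F p]
        exact Dvd.dvd.mul_right (dvd_mul_right _ _) _
      have h3 : c ^ (p * (q ^ m + 1) * t) = 1 := by
        rw [show p * (q ^ m + 1) * t = (q ^ m + 1) * (p * t) by ring, pow_mul, ← hcord,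
          pow_orderOf_eq_one, one_pow]
      rw [h2, h3]
      simp
    rw [h1]
    simp

end Cfsg.Agent.Lib.SpecBC
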